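import Mathlib

/-! A finite field with `q²` elements over a finite field with `q` elements. -/

set_option autoImplicit false

namespace CfsgLib.QuadExt

open Polynomial

variable {F K : Type*} [Field F] [Fintype F] [Field K] [Fintype K]

theorem exists_ringHom (hK : Fintype.card K = Fintype.card F ^ 2) : Nonempty (F →+* K) := by
  obtain ⟨p, hp⟩ := CharP.exists F
  haveI := hp
  obtain ⟨k, hpp, hk⟩ := FiniteField.card F p
  haveI := Fact.mk hpp
  have hKp : CharP K p := by
    obtain ⟨p', hp'⟩ := CharP.exists K
    haveI := hp'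
    obtain ⟨k', hpp', hk'⟩ := FiniteField.card K p'
    have he : p' = p := by
      have hdvd : p' ∣ p := by
        refine hpp'.dvd_of_dvd_pow (n := (k : ℕ) * 2) ?_
        rw [pow_mul, ← hk, ← hK, hk']
        exact dvd_pow_self _ k'.pos.ne'
      exact (Nat.prime_dvd_prime_iff_eq hpp' hpp).mp hdvd
    exact he ▸ hp'
  letI : Algebra (ZMod p) F := ZMod.algebra _ _
  letI : Algebra (ZMod p) K := ZMod.algebra _ _
  have h1 := FiniteField.pow_finrank_eq_card p F
  have h2 := FiniteField.pow_finrank_eq_card p K
  rw [hK, ← h1, ← pow_mul] at h2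
  obtain ⟨f⟩ := FiniteField.nonempty_algHom_of_finrank_dvd (F := ZMod p) (K := F) (L := K)
    ⟨2, Nat.pow_right_injective hpp.two_le h2⟩
  exact ⟨f.toRingHom⟩

theorem finrank_toAlgebra (hK : Fintype.card K = Fintype.card F ^ 2) (ι : F →+* K) :
    letI := ι.toAlgebra
    Module.finrank F K = 2 := by
  letI := ι.toAlgebra
  have h := Module.card_eq_pow_finrank (K := F) (V := K)
  rw [hK] at h
  exact (Nat.pow_right_injective Fintype.one_lt_card h).symm

/-- A quadratic without roots in `F` has two distinct conjugate roots in `K`. -/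
theorem exists_split (hK : Fintype.card K = Fintype.card F ^ 2) (ι : F →+* K) (a c : F)
    (hac : ∀ t : F, t ^ 2 - a * t + c ≠ 0) :
    ∃ r s : K, r ≠ s ∧ r + s = ι a ∧ r * s = ι c := by
  classical
  letI := ι.toAlgebra
  set g : F[X] := X ^ 2 - C a * X + C c with hg
  have hdeg : g.natDegree = 2 := by rw [hg]; compute_degree!
  have hirr : Irreducible g := by
    refine irreducible_of_degree_le_three_of_not_isRoot (by simp [hdeg]) fun t ht => hac t ?_
    simpa [hg, IsRoot.def] using ht
  haveI := Fact.mk hirr
  have hrk : Module.finrank F (AdjoinRoot g) ∣ Module.finrank F K := by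
    rw [(AdjoinRoot.powerBasis hirr.ne_zero).finrank, AdjoinRoot.powerBasis_dim, hdeg,
      show Module.finrank F K = 2 from finrank_toAlgebra hK ι]
  obtain ⟨f⟩ := FiniteField.nonempty_algHom_of_finrank_dvd hrk
  have hroot : f (AdjoinRoot.root g) ^ 2 - ι a * f (AdjoinRoot.root g) + ι c = 0 := by
    have h := AdjoinRoot.eval₂_root g
    rw [← AdjoinRoot.algebraMap_eq, hg] at h
    simp only [eval₂_add, eval₂_sub, eval₂_pow, eval₂_mul, eval₂_X, eval₂_C] at h
    have h2 := congrArg f h
    simp only [map_add, map_sub, map_pow, map_mul, map_zero] at h2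
    exact (congrArg₂ (fun u v => f (AdjoinRoot.root g) ^ 2 - u * f (AdjoinRoot.root g) + v)
      (f.commutes a).symm (f.commutes c).symm).trans h2
  set r := f (AdjoinRoot.root g)
  refine ⟨r, ι a - r, ?_, by ring, by linear_combination -hroot⟩
  intro hrs
  -- `r` is not in the image of `ι`
  have hnot : ∀ t : F, ι t ≠ r := by
    intro t ht
    apply hac t
    apply ι.injective
    simp [map_sub, map_add, map_mul, map_pow, ht, hroot]
  by_cases h2 : (2 : F) = 0
  · have ha : ι a = 0 := by
      have hr2 : r + r = 0 := by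
        have h2' : (2 : K) = 0 := by rw [← map_ofNat ι 2, h2, map_zero]
        rw [← two_mul, h2', zero_mul]
      linear_combination hr2 - hrs
    have : CharP F 2 := CharTwo.of_one_ne_zero_of_two_eq_zero one_ne_zero h2
    obtain ⟨t, ht⟩ := (Finite.injective_iff_surjective.mp (frobenius_inj F 2)) c
    apply hnot t
    have : CharP K 2 := charP_of_injective_ringHom ι.injective 2
    apply frobenius_inj K 2
    rw [frobenius_def, frobenius_def, ← map_pow]
    rw [frobenius_def] at ht
    rw [ht]
    have hneg : -ι c = ι c := CharTwo.neg_eq _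
    linear_combination -hroot - hneg - r * ha
  · apply hnot (a / 2)
    have h2K : (2 : K) ≠ 0 := by rw [← map_ofNat ι 2]; exact (map_ne_zero ι).mpr h2
    rw [map_div₀, map_ofNat, div_eq_iff h2K]
    linear_combination -hrs

end CfsgLib.QuadExt
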